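import Cfsg.Agent.H941.Dl.TypePres
import Cfsg.Agent.H430.CfChevTab
import Cfsg.Agent.H115.ChevPar
import Cfsg.Agent.H783.CGTable

/-!
# Type preservation for `G₂(q)` (`3 ∤ q`) and `³D₄(q)`
-/

set_option autoImplicit false
set_option linter.unusedSectionVars false

namespace Cfsg.Agent.H941.Dl

open CoxeterSystem Cfsg.Agent.ChevalleyStructure.CoxeterGeom Cfsg.Agent.Tits.Roots Cfsg.Agent.Tits.Core
  Cfsg.Agent.Tits.Exchange Cfsg.Agent.Nodes.Reps Cfsg.Agent.Nodes.BNOf Cfsg.Agent.Nodes.StabComb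
  Cfsg.Agent.Nodes.Bruhat Cfsg.Agent.Nodes.OppDec Cfsg.Agent.Nodes.LeviDec Cfsg.Agent.Nodes.NormalForm
  Cfsg.Agent.KFacts.RgdOpp Cfsg.Agent.KFacts.RgdAut Cfsg.Agent.KFacts.RgdDiag Cfsg.Agent.KFacts.RgdSyl
  Cfsg.Agent.KFacts.RgdNodes
open Cfsg Cfsg.Lie Cfsg.Agent.Nodes Cfsg.Agent.Nodes.RGDChev Cfsg.Agent.Omega.EH3.Kf
open Cfsg.Agent.H430.CfChev (mem_XX_top_iff cenOk chkcG2 alG2 inG2)

universe u

/-- **Type preservation for `G₂(q)`, `3 ∤ q`.** -/
theorem pres_G2 (K : Type u) [Field K] [Finite K] (p : ℕ) [hpp : Fact p.Prime] [CharP K p] (h3 : (3 : K) ≠ 0)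
    (α : MulAut ↥(chevG2.group K)) (J : Set (Fin 2)) :
    ∃ g : ↥(chevG2.group K), (PJ CoxeterMatrix.G₂.toCoxeterSystem FamG2.isType.isCartan
        ((chevG2.diagonalSubgroup K).subgroupOf (chevG2.group K))
        (fun x => (XV chevG2 2 K x).subgroupOf (chevG2.group K)) J).map α.toMonoidHom =
      (PJ CoxeterMatrix.G₂.toCoxeterSystem FamG2.isType.isCartan
        ((chevG2.diagonalSubgroup K).subgroupOf (chevG2.group K))
        (fun x => (XV chevG2 2 K x).subgroupOf (chevG2.group K)) J).map (MulAut.conj g).toMonoidHom := by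
  have hW : Finite CoxeterMatrix.G₂.Group := finite_W FamG2.isType CoxeterMatrix.G₂.toCoxeterSystem
  have R := rgd (K := K) FamG2.isType CoxeterMatrix.G₂.toCoxeterSystem p
  have hG : GG CoxeterMatrix.G₂.toCoxeterSystem FamG2.isType.isCartan
      ((chevG2.diagonalSubgroup K).subgroupOf (chevG2.group K))
      (fun x => (XV chevG2 2 K x).subgroupOf (chevG2.group K)) = ⊤ :=
    KFacts.RgdRigid.GG_eq_top (G1_eq_top FamG2.isType _)
  have hb := isRoot_vec FamG2.isType CoxeterMatrix.G₂.toCoxeterSystem (r := 11) (by decide)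
  have hU := H115.sup_pos_eq (K := K) FamG2.isType CoxeterMatrix.G₂.toCoxeterSystem
  have hX : (XV chevG2 2 K (vec chevG2 2 11)).subgroupOf (chevG2.group K) =
      (chevG2.rootSubgroup K 11).subgroupOf (chevG2.group K) := by
    rw [XV_vec FamG2.isType K (by decide)]
  have hinv : ∀ β : MulAut ↥(chevG2.group K), Fix β (RGD.Sup (fun x => (XV chevG2 2 K x).subgroupOf (chevG2.group K))
      (RGD.Pos CoxeterMatrix.G₂.toCoxeterSystem FamG2.isType.isCartan)) →
      Fix β ((XV chevG2 2 K (vec chevG2 2 11)).subgroupOf (chevG2.group K)) := by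
    intro β hβ
    rw [hU] at hβ
    rw [hX]
    have key : ∀ g : ↥(chevG2.group K), g ∈ (chevG2.rootSubgroup K 11).subgroupOf (chevG2.group K) ↔
        g ∈ (chevG2.posUnipotent K).subgroupOf (chevG2.group K) ∧
          ∀ u ∈ (chevG2.posUnipotent K).subgroupOf (chevG2.group K), u * g = g * u := by
      intro g
      exact mem_XX_top_iff inG2 (cenOk inG2 chkcG2) (by
        intro c hc
        simp only [List.mem_cons, List.not_mem_nil, or_false] at hc
        rcases hc with rfl | rfl | rfl | rfl <;> simp [h3]) g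
    intro x
    rw [key, key, hβ]
    refine and_congr_right fun _ => ⟨fun h u hu => ?_, fun h u hu => ?_⟩
    · have h1 := h (β u) ((hβ u).2 hu)
      rw [← map_mul, ← map_mul] at h1
      exact β.injective h1
    · obtain ⟨v, rfl⟩ := β.surjective u
      rw [← map_mul, ← map_mul, h v ((hβ v).1 hu)]
  refine type_pres_two R hG hb hinv ?_ (i := 0) (j := 1) (by decide) ?_ ?_ α J
  · intro b hb'
    have h1 : Fix (MulAut.conj b) (RGD.Sup (fun x => (XV chevG2 2 K x).subgroupOf (chevG2.group K))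
        (RGD.Pos CoxeterMatrix.G₂.toCoxeterSystem FamG2.isType.isCartan)) := fun x =>
      (Subgroup.mem_normalizer_iff.1 (R.B_le_normalizer_U hb') x).symm
    rw [Subgroup.mem_normalizer_iff]
    exact fun x => (hinv _ h1 x).symm
  · rw [rep_vec FamG2.isType _ _ (by decide)]
    decide +kernel
  · rw [rep_vec FamG2.isType _ _ (by decide)]
    decide +kernel

/-- **Type preservation for `³D₄(q)`.** -/
theorem pres_D4 {K : Type u} [Field K] [Fintype K] {q : ℕ} {φ : K →+* K} (hφ : ∀ x, φ x = x ^ q) (hq : 1 < q)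
    (hK : Fintype.card K = q ^ 3) (p : ℕ) [hpp : Fact p.Prime] [CharP K p] {T : Subgroup ↥(twistedD4 K q)}
    {n : Fin 2 → ↥(twistedD4 K q)}
    (R : RGD CoxeterMatrix.G₂.toCoxeterSystem RGDTwD4.isCartan p T n (RGDTwD4.X φ q))
    (hG : GG CoxeterMatrix.G₂.toCoxeterSystem RGDTwD4.isCartan T (RGDTwD4.X φ q) = ⊤)
    (α : MulAut ↥(twistedD4 K q)) (J : Set (Fin 2)) :
    ∃ g : ↥(twistedD4 K q), (PJ CoxeterMatrix.G₂.toCoxeterSystem RGDTwD4.isCartan T (RGDTwD4.X φ q) J).map
        α.toMonoidHom =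
      (PJ CoxeterMatrix.G₂.toCoxeterSystem RGDTwD4.isCartan T (RGDTwD4.X φ q) J).map (MulAut.conj g).toMonoidHom := by
  have hW : Finite CoxeterMatrix.G₂.Group :=
    Nodes.RGDFold.finite_W (hp := RGDTwD4.hp) CoxeterMatrix.G₂.toCoxeterSystem RGDTwD4.isCartan RGDTwD4.foldData
  have hfin : Finite (GL chevD4.Idx K) := inferInstance
  refine type_pres_card R hG ?_ α J
  have h1 : q < q ^ 3 := by
    calc q = q ^ 1 := (pow_one q).symm
      _ < q ^ 3 := Nat.pow_lt_pow_right hq (by norm_num)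
  intro i j hij
  simp only [H934.RowTwD4.card_X hφ hq hK] at hij
  fin_cases i <;> fin_cases j <;> simp at hij ⊢ <;> omega

end Cfsg.Agent.H941.Dl
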