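import Cfsg.Agent.KFacts.RgdNodes
import Cfsg.Agent.KFacts.RgdSyl
import Cfsg.Agent.Tits.ExtAux

/-!
# Automorphisms of a group with a root group datum preserve the types of the parabolic subgroups

* `type_pres` : if all diagram symmetries of frame automorphisms are trivial, every automorphism maps `P_J` to a
  conjugate of `P_J`;
* `type_pres_card` : the simple root groups have different orders;
* `type_pres_two` : rank two, a root group `X b` normalised by `n i`, not by `n j`, invariant under frame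
  automorphisms.
-/

set_option autoImplicit false
set_option linter.unusedSectionVars false

namespace Cfsg.Agent.H941.Dl

open CoxeterSystem Cfsg.Agent.ChevalleyStructure.CoxeterGeom Cfsg.Agent.Tits.Roots Cfsg.Agent.Tits.Core
  Cfsg.Agent.Tits.Exchange Cfsg.Agent.Nodes.Reps Cfsg.Agent.Nodes.BNOf Cfsg.Agent.Nodes.StabComb
  Cfsg.Agent.Nodes.Bruhat Cfsg.Agent.Nodes.OppDec Cfsg.Agent.Nodes.LeviDec Cfsg.Agent.Nodes.NormalForm
  Cfsg.Agent.KFacts.RgdOpp Cfsg.Agent.KFacts.RgdAut Cfsg.Agent.KFacts.RgdDiag Cfsg.Agent.KFacts.RgdSyl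
  Cfsg.Agent.KFacts.RgdNodes

variable {I W Y : Type*} [Fintype I] [DecidableEq I] [Group W] [Group Y] {M : CoxeterMatrix I}
  {cs : CoxeterSystem M W} {A : I → I → ℤ} {h : IsCartan M A} {p : ℕ} {T : Subgroup Y} {n : I → Y}
  {X : (I → ℤ) → Subgroup Y}

theorem simple_injective (h : IsCartan M A) : Function.Injective cs.simple := by
  intro i j hij
  by_contra hne
  exact RGD.simple_ne (h := h) hne hij

/-- A frame automorphism without diagram symmetry fixes the parabolic subgroups. -/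
theorem fix_PJ (R : RGD cs h p T n X) [Finite W] (hG : GG cs h T X = ⊤) {β : MulAut Y} (D : Diag T X β 1)
    (hB : Fix β (RGD.B cs h T X)) (J : Set I) : Fix β (PJ cs h T X J) := by
  obtain ⟨P, hP⟩ : ∃ P : Subgroup Y, ∀ x, x ∈ P ↔ β x ∈ PJ cs h T X J :=
    ⟨(PJ cs h T X J).comap β.toMonoidHom, fun x => Iff.rfl⟩
  have hBP : RGD.B cs h T X ≤ P := fun x hx => (hP x).2 (B_le_PJ ((hB x).2 hx))
  have h1 := inf_eq_PJ R hBP
  rw [hG, inf_top_eq] at h1
  have h2 : {i | n i ∈ P} = J := by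
    ext i
    show n i ∈ P ↔ i ∈ J
    rw [hP, cell_mem_PJ_iff R (cell_of_rp (D.rp (R := R) i))]
    show cs.simple i ∈ WJ cs J ↔ i ∈ J
    exact ⟨fun hi => Tits.Ext.mem_of_simple_mem_WJ (cs := cs) (simple_injective h) hi,
      fun hi => Subgroup.subset_closure ⟨i, hi, rfl⟩⟩
  rw [h2] at h1
  intro x
  rw [← hP, h1]

/-- Every automorphism fixes `U` up to conjugation. -/
theorem exists_fixU (R : RGD cs h p T n X) [Finite W] [Finite Y] [Fact p.Prime] (hG : GG cs h T X = ⊤)
    (α : MulAut Y) : ∃ g : Y, Fix (MulAut.conj g * α) (RGD.Sup X (RGD.Pos cs h)) := by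
  have hnd := not_dvd_relIndex R
  rw [hG, Subgroup.relIndex_top_right] at hnd
  have h1 : ∀ P : Sylow p Y, Nat.card ↥(P : Subgroup Y) = Nat.card ↥(RGD.Sup X (RGD.Pos cs h)) := by
    intro P
    obtain ⟨Q, hQ⟩ := R.isPGroup_Upos.exists_le_sylow
    have h3 : RGD.Sup X (RGD.Pos cs h) = Q := by
      have h4 := eq_U_of_isPGroup R Q.isPGroup' hQ (by rw [hG]; exact le_top)
      exact h4.symm
    rw [h3]
    exact Nat.card_congr (P.equiv Q).toEquiv
  obtain ⟨Q, hQ⟩ : ∃ Q : Sylow p Y, (Q : Subgroup Y) = RGD.Sup X (RGD.Pos cs h) := by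
    obtain ⟨Q, hQ⟩ := R.isPGroup_Upos.exists_le_sylow
    exact ⟨Q, eq_U_of_isPGroup R Q.isPGroup' hQ (by rw [hG]; exact le_top)⟩
  let Q' : Sylow p Y := Q.mapSurjective (f := α.toMonoidHom) α.surjective
  have hQ' : (Q' : Subgroup Y) = (Q : Subgroup Y).map α.toMonoidHom := rfl
  obtain ⟨g, hg⟩ := MulAction.exists_smul_eq Y Q' Q
  refine ⟨g, ?_⟩
  rw [fix_iff, ← hQ]
  have h2 : ((g • Q' : Sylow p Y) : Subgroup Y) = Q := by rw [hg]
  rw [Sylow.coe_subgroup_smul, hQ'] at h2
  rw [← h2]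
  ext x
  constructor
  · rintro ⟨y, hy, rfl⟩
    rw [h2] at hy
    refine ⟨α y, ⟨y, hy, rfl⟩, ?_⟩
    rfl
  · rintro ⟨z, ⟨y, hy, rfl⟩, rfl⟩
    refine ⟨y, ?_, rfl⟩
    rw [h2]
    exact hy

/-- **Automorphisms preserve the types** if there are no diagram symmetries. -/
theorem type_pres (R : RGD cs h p T n X) [Finite W] [Finite Y] [Fact p.Prime] (hG : GG cs h T X = ⊤)
    (hσ : ∀ (β : MulAut Y) (σ : Equiv.Perm I), Fix β (RGD.Sup X (RGD.Pos cs h)) → Fix β (RGD.B cs h T X) →
      Diag T X β σ → σ = 1) (α : MulAut Y) (J : Set I) :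
    ∃ g : Y, (PJ cs h T X J).map α.toMonoidHom = (PJ cs h T X J).map (MulAut.conj g).toMonoidHom := by
  obtain ⟨g, hg⟩ := exists_fixU R hG α
  obtain ⟨u, -, hU, hB, hUN, -, -⟩ := exists_frame R hG hg
  obtain ⟨σ, D⟩ := exists_diag R hG hU hUN
  have h1 := hσ _ σ hU hB D
  subst h1
  have h2 := fix_PJ R hG D hB J
  refine ⟨(u * g)⁻¹, ?_⟩
  ext x
  constructor
  · rintro ⟨y, hy, rfl⟩
    have h3 := (h2 y).2 hy
    refine ⟨_, h3, ?_⟩
    show MulAut.conj (u * g)⁻¹ ((MulAut.conj u * (MulAut.conj g * α)) y) = α y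
    rw [← mul_assoc, ← map_mul, MulAut.mul_apply, map_inv, MulAut.inv_apply_self]
  · rintro ⟨y, hy, rfl⟩
    refine ⟨(MulAut.conj u * (MulAut.conj g * α))⁻¹ y, (h2.inv y).2 hy, ?_⟩
    show α ((MulAut.conj u * (MulAut.conj g * α))⁻¹ y) = MulAut.conj (u * g)⁻¹ y
    rw [← mul_assoc, ← map_mul, mul_inv_rev, MulAut.mul_apply, MulAut.apply_inv_self, map_inv]

/-- different orders of the simple root groups -/
theorem type_pres_card (R : RGD cs h p T n X) [Finite W] [Finite Y] [Fact p.Prime] (hG : GG cs h T X = ⊤)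
    (hc : Function.Injective fun i => Nat.card ↥(X (sr i))) (α : MulAut Y) (J : Set I) :
    ∃ g : Y, (PJ cs h T X J).map α.toMonoidHom = (PJ cs h T X J).map (MulAut.conj g).toMonoidHom :=
  type_pres R hG (fun _ _ _ _ D => Equiv.ext fun i => hc (KFacts.RgdNodes.Diag.card_eq D i)) α J

/-- rank two, with an invariant root group -/
theorem type_pres_two (R : RGD cs h p T n X) [Finite W] [Finite Y] [Fact p.Prime] (hG : GG cs h T X = ⊤)
    {b : I → ℤ} (hb : IsRoot cs h b) (hinv : ∀ β : MulAut Y, Fix β (RGD.Sup X (RGD.Pos cs h)) → Fix β (X b))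
    (hBb : RGD.B cs h T X ≤ Subgroup.normalizer (X b : Set Y)) {i j : I} (hij : ∀ k, k = i ∨ k = j)
    (hi : rep cs h (cs.simple i) b = b) (hj : rep cs h (cs.simple j) b ≠ b) (α : MulAut Y) (J : Set I) :
    ∃ g : Y, (PJ cs h T X J).map α.toMonoidHom = (PJ cs h T X J).map (MulAut.conj g).toMonoidHom := by
  refine type_pres R hG (fun β σ hU hB D => ?_) α J
  have hni : n i ∈ Subgroup.normalizer (X b : Set Y) := by
    rw [Subgroup.mem_normalizer_iff]
    intro x
    constructor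
    · intro hx
      have := R.conj_mem (rp_simple cs R.nsys i) hb hx
      rwa [hi] at this
    · intro hx
      have h1 := R.conj_mem' (rp_simple cs R.nsys i) hb hx
      have h2 : rep cs h (cs.simple i)⁻¹ b = b := by rw [cs.inv_simple, hi]
      rw [h2] at h1
      have e : (n i)⁻¹ * (n i * x * (n i)⁻¹) * n i = x := by group
      rwa [e] at h1
  have hnj : n j ∉ Subgroup.normalizer (X b : Set Y) := by
    intro hn
    have h1 : X b ≤ X (rep cs h (cs.simple j) b) := by
      intro x hx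
      obtain ⟨y, rfl⟩ : ∃ y, x = n j * y * (n j)⁻¹ := ⟨(n j)⁻¹ * x * n j, by group⟩
      have hy : y ∈ X b := (Subgroup.mem_normalizer_iff.1 hn y).2 hx
      exact R.conj_mem (rp_simple cs R.nsys j) hb hy
    have h2 := X_inf_X R hb (hb.act (cs.simple j)) (Ne.symm hj)
    rw [inf_eq_left.2 h1] at h2
    exact X_ne_bot R hb h2
  have hN := (hinv β hU).normalizer
  -- `n (σ i)` normalises `X b`
  have h3 : n (σ i) ∈ Subgroup.normalizer (X b : Set Y) := by
    have h4 : β (n i) ∈ Subgroup.normalizer (X b : Set Y) := (hN _).2 hni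
    have h5 := (cell_mem_iff R hBb (cell_of_rp (D.rp (R := R) i))).1 h4
    exact Tits.Ext.mem_of_simple_mem_WJ (cs := cs) (simple_injective h) h5
  have h4 : σ i = i := by
    rcases hij (σ i) with h5 | h5
    · exact h5
    · rw [h5] at h3
      exact absurd h3 hnj
  refine Equiv.ext fun k => ?_
  rw [Equiv.Perm.one_apply]
  rcases hij k with rfl | rfl
  · exact h4
  · rcases hij (σ k) with h5 | h5
    · have h6 : σ k = σ i := by rw [h5, h4]
      have h7 := σ.injective h6
      rw [h7, h4]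
    · exact h5

end Cfsg.Agent.H941.Dl
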